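import Cfsg.Agent.H58.PSLThree.Criterion
import Cfsg.Agent.H58.PSLThree.ExtendInvolution

/-!
`q ≡ 1 mod 4`: the monomial Sylow 2-subgroup.
-/
set_option autoImplicit false

namespace Cfsg.Agent.H58.PSLThree

open Matrix MatrixGroups

variable {F : Type*} [Field F]

/-- `diag(a,b)`. -/
def dg : Fˣ × Fˣ →* GL (Fin 2) F :=
  MonoidHom.mk' (fun p => ⟨!![(p.1 : F), 0; 0, (p.2 : F)], !![(↑p.1⁻¹ : F), 0; 0, (↑p.2⁻¹ : F)],
    by ext i j; fin_cases i <;> fin_cases j <;> simp [Matrix.mul_apply, Fin.sum_univ_two],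
    by ext i j; fin_cases i <;> fin_cases j <;> simp [Matrix.mul_apply, Fin.sum_univ_two]⟩)
    (fun a b => Units.ext (by
      ext i j; fin_cases i <;> fin_cases j <;> simp [Matrix.mul_apply, Fin.sum_univ_two]))

lemma coe_dg (a b : Fˣ) : (dg (a, b) : Matrix (Fin 2) (Fin 2) F) = !![(a : F), 0; 0, (b : F)] := rfl

/-- The transposition matrix. -/
def sw : GL (Fin 2) F :=
  ⟨!![0, 1; 1, 0], !![0, 1; 1, 0],
    by ext i j; fin_cases i <;> fin_cases j <;> simp [Matrix.mul_apply, Fin.sum_univ_two],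
    by ext i j; fin_cases i <;> fin_cases j <;> simp [Matrix.mul_apply, Fin.sum_univ_two]⟩

lemma coe_sw : ((sw : GL (Fin 2) F) : Matrix (Fin 2) (Fin 2) F) = !![0, 1; 1, 0] := rfl

lemma sw_mul_self : (sw : GL (Fin 2) F) * sw = 1 :=
  Units.ext (by ext i j; fin_cases i <;> fin_cases j <;> simp [coe_sw, Matrix.mul_apply, Fin.sum_univ_two])

lemma sw_dg_sw (a b : Fˣ) : sw * dg (a, b) * sw = dg (b, a) :=
  Units.ext (by
    ext i j
    fin_cases i <;> fin_cases j <;> simp [coe_sw, coe_dg, Matrix.mul_apply, Fin.sum_univ_two])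

lemma coe_dg_sw (a b : Fˣ) :
    ((dg (a, b) * sw : GL (Fin 2) F) : Matrix (Fin 2) (Fin 2) F) = !![0, (a : F); (b : F), 0] := by
  ext i j
  fin_cases i <;> fin_cases j <;> simp [coe_sw, coe_dg, Matrix.mul_apply, Fin.sum_univ_two]

lemma dg_inj {a b c d : Fˣ} (h : dg (a, b) = dg (c, d)) : a = c ∧ b = d := by
  have h' := congrArg (fun A : GL (Fin 2) F => (A : Matrix (Fin 2) (Fin 2) F)) h
  simp only [coe_dg] at h'
  have h00 := congrFun (congrFun h' 0) 0
  have h11 := congrFun (congrFun h' 1) 1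
  simp at h00 h11
  exact ⟨Units.ext h00, Units.ext h11⟩

/-- `q ≡ 1 mod 4`. -/
theorem isSimple_one_mod_four [Fintype F] (hq : Fintype.card F % 4 = 1)
    (S : Sylow 2 (ProjectiveSpecialLinearGroup (Fin 3) F)) :
    (groupFusionSystem (S : Subgroup (ProjectiveSpecialLinearGroup (Fin 3) F))).IsSimple 2 := by
  classical
  have : Fact (Nat.Prime 2) := ⟨Nat.prime_two⟩
  set q := Fintype.card F with hqdef
  have hodd : q % 2 = 1 := by omega
  have h2 := two_ne_zero_of_odd_card hodd
  let μ : Sylow 2 Fˣ := default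
  have hμ : ∀ {x : Fˣ} {k : ℕ}, x ^ 2 ^ k = 1 → x ∈ (μ : Subgroup Fˣ) :=
    fun h => mem_sylow_of_pow mul_comm μ h
  have hμcard := (μ : Subgroup Fˣ).card_mul_index
  rw [H1.natCard_units hqdef.symm] at hμcard
  set D : Subgroup (GL (Fin 2) F) := ((μ : Subgroup Fˣ).prod (μ : Subgroup Fˣ)).map dg with hDdef
  have hDmem : ∀ {x}, x ∈ D → ∃ a ∈ (μ : Subgroup Fˣ), ∃ b ∈ (μ : Subgroup Fˣ), dg (a, b) = x := by
    rintro _ ⟨⟨a, b⟩, ⟨ha, hb⟩, rfl⟩
    exact ⟨a, ha, b, hb, rfl⟩
  have hmemD : ∀ {a b}, a ∈ (μ : Subgroup Fˣ) → b ∈ (μ : Subgroup Fˣ) → dg (a, b) ∈ D :=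
    fun {a b} ha hb => ⟨(a, b), ⟨ha, hb⟩, rfl⟩
  have hDw : ∀ x ∈ D, sw * x * sw ∈ D := by
    intro x hx
    obtain ⟨a, ha, b, hb, rfl⟩ := hDmem hx
    rw [sw_dg_sw]; exact hmemD hb ha
  let P := extendInvol D sw sw_mul_self hDw
  have hPmem : ∀ {x}, x ∈ P → ∃ a ∈ (μ : Subgroup Fˣ), ∃ b ∈ (μ : Subgroup Fˣ),
      x = dg (a, b) ∨ x = dg (a, b) * sw := by
    intro x hx
    rcases mem_extendInvol.1 hx with h | h
    · obtain ⟨a, ha, b, hb, rfl⟩ := hDmem h
      exact ⟨a, ha, b, hb, Or.inl rfl⟩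
    · obtain ⟨a, ha, b, hb, he⟩ := hDmem h
      refine ⟨a, ha, b, hb, Or.inr ?_⟩
      rw [he, mul_assoc, sw_mul_self, mul_one]
  have hswD : (sw : GL (Fin 2) F) ∉ D := by
    intro h
    obtain ⟨a, -, b, -, he⟩ := hDmem h
    have := congrFun (congrFun (congrArg (fun A : GL (Fin 2) F => (A : Matrix (Fin 2) (Fin 2) F)) he) 0) 0
    simp [coe_dg, coe_sw] at this
  have hcardD : Nat.card D = Nat.card (μ : Subgroup Fˣ) * Nat.card (μ : Subgroup Fˣ) := by
    rw [hDdef, Subgroup.card_map_of_injective (fun x y h => Prod.ext (dg_inj h).1 (dg_inj h).2),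
      Nat.card_congr (Subgroup.prodEquiv _ _).toEquiv, Nat.card_prod]
  have hcardP : Nat.card P = 2 * (Nat.card (μ : Subgroup Fˣ) * Nat.card (μ : Subgroup Fˣ)) := by
    rw [card_extendInvol hswD, hcardD]
  obtain ⟨m, hm⟩ := μ.isPGroup'.exists_card_eq
  have hP : IsPGroup 2 P := IsPGroup.of_card (n := 1 + (m + m)) (by
    rw [hcardP, hm, pow_add, pow_add, pow_one])
  have hi : Odd (μ : Subgroup Fˣ).index :=
    Nat.odd_iff.2 (Nat.two_dvd_ne_zero.1 μ.not_dvd_index)
  have hidx : Odd P.index := by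
    obtain ⟨t, ht⟩ : ∃ t, q = 4 * t + 1 := ⟨q / 4, by omega⟩
    have hG : P.index = q * (2 * t + 1) * ((μ : Subgroup Fˣ).index * (μ : Subgroup Fˣ).index) := by
      apply Nat.eq_of_mul_eq_mul_left (show 0 < Nat.card P from Nat.card_pos)
      rw [P.card_mul_index, hcardP, Matrix.card_GL_field, ← hqdef, Fin.prod_univ_two]
      simp only [Fin.val_zero, Fin.val_one, pow_zero, pow_one]
      have e1 : q ^ 2 - 1 = (q - 1) * (2 * (2 * t + 1)) := by
        rw [show (q - 1) = 4 * t by omega]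
        have : q ^ 2 = 4 * t * (2 * (2 * t + 1)) + 1 := by rw [ht]; ring
        omega
      have e2 : q ^ 2 - q = q * (q - 1) := by rw [Nat.mul_sub, sq, mul_one]
      rw [e1, e2]
      calc (q - 1) * (2 * (2 * t + 1)) * (q * (q - 1))
          = 2 * (2 * t + 1) * q * ((q - 1) * (q - 1)) := by ring
        _ = _ := by rw [← hμcard]; ring
    rw [hG]
    exact ((Nat.odd_iff.2 hodd).mul ⟨t, rfl⟩).mul (hi.mul hi)
  have hm1 : (-1 : Fˣ) ∈ (μ : Subgroup Fˣ) := hμ (k := 1) (by simp)
  have hneg1 : (-1 : GL (Fin 2) F) = dg (-1, -1) := Units.ext (by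
    ext i j; fin_cases i <;> fin_cases j <;> simp [coe_dg])
  have hne : (-1 : GL (Fin 2) F) ∈ P := by rw [hneg1]; exact le_extendInvol (hmemD hm1 hm1)
  obtain ⟨c, hc, hc1, hc2⟩ : ∃ c ∈ (μ : Subgroup Fˣ), (c : F) ≠ 1 ∧ (c : F) + 1 ≠ 0 := by
    by_contra hcon
    push Not at hcon
    have hsub : ((μ : Subgroup Fˣ) : Set Fˣ) ⊆ {1, -1} := by
      intro x hx
      by_cases hx1 : (x : F) = 1
      · exact Or.inl (Units.ext hx1)
      · refine Or.inr (Units.ext ?_)
        rw [Units.val_neg, Units.val_one]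
        exact eq_neg_of_add_eq_zero_left (hcon x hx hx1)
    have h4 : 2 ^ 2 ∣ Nat.card (μ : Subgroup Fˣ) := μ.pow_dvd_card_of_pow_dvd_card (by
      rw [H1.natCard_units hqdef.symm]; norm_num; omega)
    have hle : Nat.card (μ : Subgroup Fˣ) ≤ 2 := by
      refine le_trans (le_of_eq (Nat.card_coe_set_eq _)) ?_
      refine le_trans (Set.ncard_le_ncard hsub) ?_
      refine le_trans (Set.ncard_insert_le _ _) ?_
      rw [Set.ncard_singleton]
    have h4' := Nat.le_of_dvd Nat.card_pos h4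
    linarith [h4', hle]
  have hcP : dg (c, 1) ∈ P := le_extendInvol (hmemD hc (one_mem _))
  have hswP : (sw : GL (Fin 2) F) ∈ P := invol_mem_extendInvol
  refine isSimple_of_model hodd P hP hidx hne ?_ ?_ ?_ S
  · -- normalizer
    have hdiag : ∀ u v : Fˣ, (∀ p ∈ P, dg (u, v) * p * (dg (u, v))⁻¹ ∈ P) →
        ∃ z ∈ Subgroup.center (GL (Fin 2) F), ∃ s ∈ P, dg (u, v) = z * s := by
      intro u v huv
      obtain ⟨a, ha, b, -, hab⟩ := hPmem (huv _ hswP)
      have hmul : dg (u, v) * sw * (dg (u, v))⁻¹ = dg (u * v⁻¹, v * u⁻¹) * sw := by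
        rw [mul_inv_eq_iff_eq_mul]
        refine Units.ext ?_
        ext i j
        fin_cases i <;> fin_cases j <;> simp [coe_dg, coe_sw, Matrix.mul_apply, Fin.sum_univ_two]
      rw [hmul] at hab
      rcases hab with hab | hab
      · have := congrFun (congrFun (congrArg (fun A : GL (Fin 2) F => (A : Matrix (Fin 2) (Fin 2) F)) hab) 0) 0
        simp [coe_dg, coe_sw, Matrix.mul_apply, Fin.sum_univ_two] at this
        exact (a.ne_zero this.symm).elim
      · have huv' := (dg_inj (mul_right_cancel hab)).1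
        refine ⟨dg (v, v), Subgroup.mem_center_iff.2 fun B => Units.ext ?_, dg (u * v⁻¹, 1),
          le_extendInvol (hmemD (huv' ▸ ha) (one_mem _)), ?_⟩
        · ext i j
          fin_cases i <;> fin_cases j <;> simp [coe_dg, Matrix.mul_apply, Fin.sum_univ_two, mul_comm]
        · rw [← map_mul]
          simp
    intro A hA
    obtain ⟨a, -, b, -, hab⟩ := hPmem (hA _ hcP)
    have htr : ((A * dg (c, 1) * A⁻¹ : GL (Fin 2) F) : Matrix (Fin 2) (Fin 2) F).trace = (c : F) + 1 := by
      rw [Units.val_mul, Units.val_mul, Matrix.trace_units_conj, trace_fin_two, coe_dg]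
      simp
    rcases hab with hab | hab
    swap
    · rw [hab, coe_dg_sw, trace_fin_two] at htr
      simp at htr
      exact absurd htr.symm hc2
    rw [mul_inv_eq_iff_eq_mul] at hab
    have hent := congrArg (fun B : GL (Fin 2) F => (B : Matrix (Fin 2) (Fin 2) F)) hab
    have e00 := congrFun (congrFun hent 0) 0
    have e01 := congrFun (congrFun hent 0) 1
    have e10 := congrFun (congrFun hent 1) 0
    have e11 := congrFun (congrFun hent 1) 1
    simp [coe_dg, Matrix.mul_apply, Fin.sum_univ_two] at e00 e01 e10 e11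
    set M := (A : Matrix (Fin 2) (Fin 2) F) with hM
    have hdet : M 0 0 * M 1 1 - M 0 1 * M 1 0 ≠ 0 := by
      rw [← det_fin_two]; exact gl_det_ne_zero A
    have hshape : (M 0 1 = 0 ∧ M 1 0 = 0) ∨ (M 0 0 = 0 ∧ M 1 1 = 0) := by
      by_cases hac : (a : F) = c
      · have h01 : M 0 1 = 0 := by
          by_contra h
          have : M 0 1 * ((a : F) - 1) = 0 := by linear_combination -e01
          exact hc1 (hac ▸ sub_eq_zero.1 ((mul_eq_zero.1 this).resolve_left h))
        refine Or.inl ⟨h01, ?_⟩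
        by_contra h
        have hbc : (b : F) = c := by
          have : M 1 0 * ((b : F) - c) = 0 := by linear_combination -e10
          exact sub_eq_zero.1 ((mul_eq_zero.1 this).resolve_left h)
        have h11 : M 1 1 = 0 := by
          by_contra h'
          have : M 1 1 * ((b : F) - 1) = 0 := by linear_combination -e11
          exact hc1 (hbc ▸ sub_eq_zero.1 ((mul_eq_zero.1 this).resolve_left h'))
        exact hdet (by rw [h01, h11]; ring)
      · have h00 : M 0 0 = 0 := by
          by_contra h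
          have : M 0 0 * ((a : F) - c) = 0 := by linear_combination -e00
          exact hac (sub_eq_zero.1 ((mul_eq_zero.1 this).resolve_left h))
        refine Or.inr ⟨h00, ?_⟩
        by_contra h
        have hb1 : (b : F) = 1 := by
          have : M 1 1 * ((b : F) - 1) = 0 := by linear_combination -e11
          exact sub_eq_zero.1 ((mul_eq_zero.1 this).resolve_left h)
        have h10 : M 1 0 = 0 := by
          by_contra h'
          have : M 1 0 * ((b : F) - c) = 0 := by linear_combination -e10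
          exact hc1 ((sub_eq_zero.1 ((mul_eq_zero.1 this).resolve_left h')).symm.trans hb1)
        exact hdet (by rw [h00, h10]; ring)
    rcases hshape with ⟨h01, h10⟩ | ⟨h00, h11⟩
    · have hu : M 0 0 ≠ 0 := fun h => hdet (by rw [h, h01]; ring)
      have hv : M 1 1 ≠ 0 := fun h => hdet (by rw [h, h10]; ring)
      have hAd : A = dg (Units.mk0 _ hu, Units.mk0 _ hv) := Units.ext (by
        ext i j; fin_cases i <;> fin_cases j <;> simp [coe_dg, ← hM, h01, h10])
      rw [hAd] at hA ⊢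
      exact hdiag _ _ hA
    · have hu : M 0 1 ≠ 0 := fun h => hdet (by rw [h, h00]; ring)
      have hv : M 1 0 ≠ 0 := fun h => hdet (by rw [h, h00]; ring)
      have hAd : A = dg (Units.mk0 _ hu, Units.mk0 _ hv) * sw := Units.ext (by
        rw [coe_dg_sw]
        ext i j; fin_cases i <;> fin_cases j <;> simp [← hM, h00, h11])
      obtain ⟨z, hz, s, hs, he⟩ := hdiag (Units.mk0 _ hu) (Units.mk0 _ hv) fun p hp => by
        have := hA _ (P.mul_mem (P.mul_mem hswP hp) hswP)
        rw [hAd] at this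
        have hswi : (sw : GL (Fin 2) F)⁻¹ = sw := inv_eq_of_mul_eq_one_right sw_mul_self
        convert this using 1
        rw [_root_.mul_inv_rev, hswi]
        simp only [mul_assoc]
        rw [← mul_assoc sw sw, sw_mul_self, one_mul, ← mul_assoc sw sw, sw_mul_self, one_mul]
      exact ⟨z, hz, s * sw, P.mul_mem hs hswP, by rw [hAd, he, mul_assoc]⟩
  · -- central involutions
    intro p hp hpp hpc
    obtain ⟨a, -, b, -, hab | hab⟩ := hPmem hp
    · subst hab
      have h := congrFun (congrFun (congrArg (fun A : GL (Fin 2) F => (A : Matrix (Fin 2) (Fin 2) F)) (hpc _ hswP)) 0) 1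
      simp [coe_dg, coe_sw, Matrix.mul_apply, Fin.sum_univ_two] at h
      obtain rfl : a = b := Units.ext h
      rw [← map_mul] at hpp
      have haa : a * a = 1 := (dg_inj (c := 1) (d := 1) (hpp.trans (map_one dg).symm)).1
      rcases (mul_self_eq_one_iff.1 (by rw [← Units.val_mul, haa, Units.val_one] : (a : F) * a = 1)) with h | h
      · left
        rw [show a = 1 from Units.ext h]
        exact map_one dg
      · right
        rw [hneg1, show a = -1 from Units.ext (by simpa using h)]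
    · subst hab
      exfalso
      have h := congrFun (congrFun (congrArg (fun A : GL (Fin 2) F => (A : Matrix (Fin 2) (Fin 2) F)) (hpc _ hcP)) 0) 1
      simp [coe_dg, coe_sw, Matrix.mul_apply, Fin.sum_univ_two] at h
      exact hc1 (by rw [h]; simp)
  · -- strongly closed
    intro T hTP hinv hfus
    have hsT : (sw : GL (Fin 2) F) ∈ T := hinv _ hswP sw_mul_self
    have h1 : ∀ a ∈ (μ : Subgroup Fˣ), dg (a, a⁻¹) ∈ T := by
      intro a ha
      have hd := hmemD ha (inv_mem ha)
      have hx : dg (a, a⁻¹) * sw ∈ T := hinv _ (P.mul_mem (le_extendInvol hd) hswP) (by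
        rw [mul_assoc, ← mul_assoc sw, sw_dg_sw, ← map_mul]
        simp only [Prod.mk_mul_mk, mul_inv_cancel, inv_mul_cancel]
        exact map_one dg)
      have := T.mul_mem hx hsT
      rwa [mul_assoc, sw_mul_self, mul_one] at this
    have h2' : ∀ a ∈ (μ : Subgroup Fˣ), dg (a, 1) ∈ T := by
      intro a ha
      let Q : SpecialLinearGroup (Fin 3) F := ⟨!![1, 0, 0; 0, 0, -1; 0, 1, 0], by simp [det_fin_three]⟩
      refine hfus _ (h1 a ha) _ (le_extendInvol (hmemD ha (one_mem _))) ⟨proj Q, ?_⟩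
      have h : Q * emb (dg (a, a⁻¹)) = emb (dg (a, 1)) * Q := by
        refine Subtype.ext ?_
        rw [Matrix.SpecialLinearGroup.coe_mul, Matrix.SpecialLinearGroup.coe_mul, coe_emb, coe_emb]
        ext i j
        fin_cases i <;> fin_cases j <;>
          simp [Q, blkMat, coe_dg, Matrix.mul_apply, Fin.sum_univ_three, det_fin_two]
      rw [e, MonoidHom.comp_apply, MonoidHom.comp_apply, ← map_mul, h, map_mul, mul_inv_cancel_right]
    refine le_antisymm hTP fun x hx => ?_
    have hD : D ≤ T := by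
      intro y hy
      obtain ⟨a, ha, b, hb, rfl⟩ := hDmem hy
      have := T.mul_mem (h2' a ha) (T.mul_mem (h1 _ (inv_mem hb)) (h2' b hb))
      rw [← map_mul, ← map_mul] at this
      simpa using this
    rcases mem_extendInvol.1 hx with h | h
    · exact hD h
    · have := T.mul_mem (hD h) hsT
      rwa [mul_assoc, sw_mul_self, mul_one] at this

end Cfsg.Agent.H58.PSLThree
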